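/-
Modules of small symmetric groups without vectors fixed by nonsolvable groups: a certificate checker.
-/
import Mathlib

set_option autoImplicit false

namespace Cfsg.Agent.H61.AM

open Equiv
open scoped commutatorElement

/-- the image of `i` under the code `c` -/
def ev (c i : ℕ) : ℕ := Nat.mod (Nat.shiftRight c (Nat.mul 4 i)) 16

/-- the image under a word -/
noncomputable def app (l : List ℕ) (i : ℕ) : ℕ :=
  List.rec (motive := fun _ => ℕ) i (fun c _ ih => ev c ih) l

/-- the code is a permutation -/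
def okc (n c : ℕ) : Bool := (List.range (n + 1)).all fun j =>
  Nat.ble (ev c j) n && (List.range (n + 1)).any fun i => Nat.beq (ev c i) j

/-- two words are equal -/
noncomputable def eqw (n : ℕ) (l m : List ℕ) : Bool :=
  (List.range (n + 1)).all fun i => Nat.beq (app l i) (app m i)

open Classical in
/-- the permutation of a code -/
noncomputable def P (n c : ℕ) : Perm (Fin (n + 1)) :=
  if h : Function.Bijective fun i : Fin (n + 1) => Fin.ofNat (n + 1) (ev c i) then Equiv.ofBijective _ h else 1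

/-- the permutation of a word -/
noncomputable def W (n : ℕ) (l : List ℕ) : Perm (Fin (n + 1)) := (l.map (P n)).prod

variable {n : ℕ}

@[simp] theorem W_nil : W n [] = 1 := rfl
@[simp] theorem W_cons (c : ℕ) (l : List ℕ) : W n (c :: l) = P n c * W n l := by simp [W]
theorem W_append (l m : List ℕ) : W n (l ++ m) = W n l * W n m := by simp [W]
theorem W_rep (k c : ℕ) : W n (List.replicate k c) = P n c ^ k := by simp [W]

theorem P_val {c : ℕ} (h : okc n c = true) (i : Fin (n + 1)) : (P n c i).val = ev c i := by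
  simp only [okc, List.all_eq_true, List.mem_range, Bool.and_eq_true, Nat.ble_eq, List.any_eq_true,
    Nat.beq_eq] at h
  have e : ∀ i : Fin (n + 1), (Fin.ofNat (n + 1) (ev c i)).val = ev c i := fun i =>
    Nat.mod_eq_of_lt (Nat.lt_succ_of_le (h i i.2).1)
  have hb : Function.Bijective fun i : Fin (n + 1) => Fin.ofNat (n + 1) (ev c i) :=
    Finite.surjective_iff_bijective.1 fun j => by
      obtain ⟨i, hi, hj⟩ := (h j j.2).2
      exact ⟨⟨i, hi⟩, Fin.ext ((e ⟨i, hi⟩).trans hj)⟩
  rw [P, dif_pos hb]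
  exact e i

theorem W_val {l : List ℕ} (h : ∀ c ∈ l, okc n c = true) (i : Fin (n + 1)) : (W n l i).val = app l i := by
  induction l with
  | nil => rfl
  | cons c l ih =>
    rw [W_cons, Perm.mul_apply, P_val (h c (by simp)), ih fun d hd => h d (by simp [hd])]
    rfl

theorem eqw_eq {l m : List ℕ} (hl : ∀ c ∈ l, okc n c = true) (hm : ∀ c ∈ m, okc n c = true)
    (h : eqw n l m = true) : W n l = W n m := by
  ext i
  rw [W_val hl, W_val hm]
  exact Nat.eq_of_beq_eq_true (List.all_eq_true.1 h i (List.mem_range.2 i.2))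

theorem eqw_of {l m : List ℕ} (hl : ∀ c ∈ l, okc n c = true) (hm : ∀ c ∈ m, okc n c = true)
    (h : W n l = W n m) : eqw n l m = true :=
  List.all_eq_true.2 fun i hi => by
    have a := W_val hl ⟨i, List.mem_range.1 hi⟩
    have b := W_val hm ⟨i, List.mem_range.1 hi⟩
    rw [h, b] at a
    exact Nat.beq_eq ▸ a.symm

/-- a check along two lists -/
noncomputable def all2 {α β : Type} (p : α → β → Bool) (l : List α) : List β → Bool :=
  List.rec (motive := fun _ => List β → Bool) (fun m => m.isEmpty)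
    (fun a _ ih m => List.casesOn (motive := fun _ => Bool) m false fun b m => p a b && ih m) l

theorem all2_spec {α β : Type} {p : α → β → Bool} {l : List α} {m : List β} (h : all2 p l m = true) :
    List.Forall₂ (fun a b => p a b = true) l m := by
  induction l generalizing m with
  | nil => rw [List.isEmpty_iff.1 h]; exact .nil
  | cons a l ih =>
    cases m with
    | nil => exact absurd h (by simp [all2])
    | cons b m =>
      have : (p a b && all2 p l m) = true := h
      rw [Bool.and_eq_true] at this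
      exact .cons this.1 (ih this.2)

theorem ex_left {α β : Type*} {r : α → β → Prop} {l : List α} {m : List β} (h : List.Forall₂ r l m) :
    (∀ a ∈ l, ∃ b, r a b) ∧ ∀ b ∈ m, ∃ a, r a b := by
  induction h with
  | nil => simp
  | cons h1 _ ih =>
    exact ⟨List.forall_mem_cons.2 ⟨⟨_, h1⟩, ih.1⟩, List.forall_mem_cons.2 ⟨⟨_, h1⟩, ih.2⟩⟩

theorem sum_eq {α β M : Type*} [AddCommMonoid M] {r : α → β → Prop} {l : List α} {m : List β}
    (h : List.Forall₂ r l m) {F : α → M} {G : β → M} (e : ∀ a ∈ l, ∀ b, r a b → F a = G b) :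
    (l.map F).sum = (m.map G).sum := by
  induction h with
  | nil => rfl
  | cons h1 _ ih =>
    rw [List.map_cons, List.map_cons, List.sum_cons, List.sum_cons, e _ (by simp) _ h1,
      ih fun a ha => e a (by simp [ha])]

/-- three elements that generate a nonsolvable group -/
def Tri {Γ : Type*} [Group Γ] (a u v : Γ) : Prop := a ≠ 1 ∧ a = ⁅u * a * u⁻¹, v * a * v⁻¹⁆

theorem Tri.not_solvable {Γ : Type*} [Group Γ] {a u v : Γ} (h : Tri a u v) {S : Subgroup Γ} (ha : a ∈ S)
    (hu : u ∈ S) (hv : v ∈ S) : ¬ Group.IsSolvable S := by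
  refine not_isSolvable_of_mem_derivedSeries (g := ⟨a, ha⟩) (fun e => h.1 (congrArg Subtype.val e))
    fun k => ?_
  induction k with
  | zero => exact Subgroup.mem_top _
  | succ k ih =>
    have : (⟨a, ha⟩ : S) = ⁅(⟨u, hu⟩ : S) * ⟨a, ha⟩ * (⟨u, hu⟩ : S)⁻¹, (⟨v, hv⟩ : S) * ⟨a, ha⟩ * (⟨v, hv⟩ : S)⁻¹⁆ :=
      Subtype.ext h.2
    rw [this, derivedSeries_succ]
    exact Subgroup.commutator_mem_commutator ((derivedSeries_normal _ k).conj_mem _ ih _)
      ((derivedSeries_normal _ k).conj_mem _ ih _)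

/-- no vector is fixed by a nonsolvable group of even permutations -/
def Good (Γ V : Type*) [Group Γ] [AddCommGroup V] [DistribMulAction Γ V] : Prop :=
  ∀ (z : V) (a u v : Γ), Tri a (u * u) (v * v) → a • z = z → (u * u) • z = z → (v * v) • z = z → z = 0

/-- a nonsolvable group, a subgroup `D` and a transversal `Y` -/
structure KT where
  (a u' v' u v x y : ℕ)
  (D Y : List ℕ)
  (ca cu cv : List (ℕ × ℕ))

/-- the transversal is invariant -/
noncomputable def invc (n s : ℕ) (D Y : List ℕ) (cs : List (ℕ × ℕ)) : Bool :=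
  all2 (fun y c => eqw n [s, y] [c.1, c.2] && D.contains c.2) Y cs && (cs.map Prod.fst).isPerm Y

/-- the check of the group data -/
noncomputable def okK (n : ℕ) (K : KT) : Bool :=
  ([K.a, K.u', K.v', K.u, K.v, K.x, K.y] ++ (K.D ++ K.Y)).all (okc n) && !eqw n [K.a] [] &&
    eqw n [K.u] [K.u', K.u'] && eqw n [K.v] [K.v', K.v'] && eqw n [K.x, K.u] [K.u, K.a] &&
    eqw n [K.y, K.v] [K.v, K.a] && eqw n [K.a, K.y, K.x] [K.x, K.y] &&
    invc n K.a K.D K.Y K.ca && invc n K.u K.D K.Y K.cu && invc n K.v K.D K.Y K.cv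

variable {V : Type*} [AddCommGroup V] [DistribMulAction (Perm (Fin (n + 1))) V]

theorem invc_fix {s : ℕ} {D Y : List ℕ} {cs : List (ℕ × ℕ)} (h : invc n s D Y cs = true) (hs : okc n s = true)
    (hD : ∀ c ∈ D, okc n c = true) (hY : ∀ c ∈ Y, okc n c = true) {z : V} (hz : ∀ c ∈ D, P n c • z = z) :
    P n s • (Y.map fun y => P n y • z).sum = (Y.map fun y => P n y • z).sum := by
  rw [invc, Bool.and_eq_true, List.isPerm_iff] at h
  have h1 := all2_spec h.1
  have h2 : ∀ c ∈ cs, okc n c.1 = true := fun c hc => hY _ (h.2.subset (List.mem_map_of_mem hc))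
  rw [List.smul_sum, List.map_map]
  refine Eq.trans ?_ (h.2.map fun y => P n y • z).sum_eq
  rw [List.map_map]
  refine (sum_eq (List.Forall₂.flip (List.forall₂_and_left _ _ |>.2 ⟨h2, h1.flip⟩)) fun y hy c hc => ?_)
  obtain ⟨h3, h4⟩ := hc
  simp only [flip, Bool.and_eq_true, List.contains_iff_mem] at h4
  have := eqw_eq (by simp [hs, hY y hy]) (by simp [h3, hD _ h4.2]) h4.1
  simp only [W_cons, W_nil, mul_one] at this
  simp only [Function.comp]
  rw [← mul_smul, this, mul_smul, hz _ h4.2]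

theorem okK_sum (hG : Good (Perm (Fin (n + 1))) V) {K : KT} (h : okK n K = true) :
    (∀ c ∈ K.D, okc n c = true) ∧ (∀ c ∈ K.Y, okc n c = true) ∧
      ∀ z : V, (∀ c ∈ K.D, P n c • z = z) → (K.Y.map fun y => P n y • z).sum = 0 := by
  simp only [okK, Bool.and_eq_true, List.all_eq_true, List.mem_append, Bool.not_eq_true'] at h
  obtain ⟨⟨⟨⟨⟨⟨⟨⟨⟨h0, h1⟩, h2⟩, h3⟩, h4⟩, h5⟩, h6⟩, h7⟩, h8⟩, h9⟩ := h
  have hD : ∀ c ∈ K.D, okc n c = true := fun c hc => h0 c (.inr (.inl hc))
  have hY : ∀ c ∈ K.Y, okc n c = true := fun c hc => h0 c (.inr (.inr hc))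
  have o : ∀ c ∈ [K.a, K.u', K.v', K.u, K.v, K.x, K.y], okc n c = true := fun c hc => h0 c (.inl hc)
  simp only [List.forall_mem_cons] at o
  obtain ⟨o1, o2, o3, o4, o5, o6, o7, -⟩ := o
  have e2 := eqw_eq (by simp [*]) (by simp [*]) h2
  have e3 := eqw_eq (by simp [*]) (by simp [*]) h3
  have e4 := eqw_eq (by simp [*]) (by simp [*]) h4
  have e5 := eqw_eq (by simp [*]) (by simp [*]) h5
  have e6 := eqw_eq (by simp [*]) (by simp [*]) h6
  simp only [W_cons, W_nil, mul_one] at e2 e3 e4 e5 e6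
  refine ⟨hD, hY, fun z hz => hG _ (P n K.a) (P n K.u') (P n K.v') ⟨fun e => ?_, ?_⟩
    (invc_fix h7 o1 hD hY hz) (e2 ▸ invc_fix h8 o4 hD hY hz) (e3 ▸ invc_fix h9 o5 hD hY hz)⟩
  · rw [eqw_of (l := [K.a]) (m := []) (by simp [o1]) (by simp) (by simp [e])] at h1
    exact absurd h1 (by simp)
  · rw [← e2, ← e3, ← e4, ← e5, mul_inv_cancel_right, mul_inv_cancel_right, commutatorElement_def, ← e6]
    group

/-- the tables: the elements of the subgroup `B` and the representatives of the double cosets -/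
structure TB where
  (m D r0 : ℕ)
  (tb rp : ℕ → ℕ)

/-- the tables consist of permutations -/
def okT (n : ℕ) (T : TB) : Bool :=
  ((List.range T.m).all fun k => okc n (T.tb k)) && ((List.range T.D).all fun k => okc n (T.rp k)) &&
    Nat.ble T.r0 T.m

/-- a term `b₁ d b₂` is coded by `(k₁ * 64 + d) * 512 + k₂` -/
def inb (T : TB) (t : ℕ) : Bool :=
  Nat.blt (t / 32768) T.m && Nat.blt (t / 512 % 64) T.D && Nat.blt (t % 512) T.m

/-- the word of a term -/
def tw (T : TB) (t : ℕ) : List ℕ := [T.tb (t / 32768), T.rp (t / 512 % 64), T.tb (t % 512)]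

/-- the check of a trace relation -/
noncomputable def okR (n : ℕ) (T : TB) (K : KT) (h g : ℕ) (ks ts : List ℕ) : Bool :=
  okc n h && okc n g && all2 (fun c k => Nat.blt k T.r0 && eqw n [c, g] [g, T.tb k]) K.D ks &&
    all2 (fun y t => inb T t && eqw n [h, y, g] (tw T t)) K.Y ts

/-- the check of an equation of terms -/
noncomputable def okS (n : ℕ) (T : TB) (t u : ℕ) : Bool := inb T t && inb T u && eqw n (tw T t) (tw T u)

theorem okT_tb {T : TB} (h : okT n T = true) {k : ℕ} (hk : k < T.m) : okc n (T.tb k) = true := by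
  simp only [okT, Bool.and_eq_true, List.all_eq_true, List.mem_range] at h
  exact h.1.1 k hk

theorem okT_rp {T : TB} (h : okT n T = true) {k : ℕ} (hk : k < T.D) : okc n (T.rp k) = true := by
  simp only [okT, Bool.and_eq_true, List.all_eq_true, List.mem_range] at h
  exact h.1.2 k hk

theorem inb_spec {T : TB} {t : ℕ} (h : inb T t = true) :
    t / 32768 < T.m ∧ t / 512 % 64 < T.D ∧ t % 512 < T.m := by
  simpa [inb, Nat.blt_eq, and_assoc] using h

theorem tw_ok {T : TB} (hT : okT n T = true) {t : ℕ} (h : inb T t = true) : ∀ c ∈ tw T t, okc n c = true := by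
  obtain ⟨a, b, c⟩ := inb_spec h
  simp [tw, okT_tb hT a, okT_rp hT b, okT_tb hT c]

/-- a list of terms whose sum vanishes -/
def Val (n : ℕ) (T : TB) {V : Type*} [AddCommGroup V] [DistribMulAction (Perm (Fin (n + 1))) V] {p : ℕ}
    (f : V →+ ZMod p) (w : V) (ts : List ℕ) : Prop :=
  (∀ t ∈ ts, inb T t = true) ∧ (ts.map fun t => f (W n (tw T t) • w)).sum = 0

variable {p : ℕ} {f : V →+ ZMod p} {w : V} {T : TB}

theorem okR_val (hG : Good (Perm (Fin (n + 1))) V) (hT : okT n T = true)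
    (h0 : ∀ k < T.r0, P n (T.tb k) • w = w) {K : KT} (hK : okK n K = true) {h g : ℕ} {ks ts : List ℕ}
    (e : okR n T K h g ks ts = true) : Val n T f w ts := by
  obtain ⟨hD, hY, hs⟩ := okK_sum hG hK
  simp only [okR, Bool.and_eq_true] at e
  obtain ⟨⟨⟨oh, og⟩, e1⟩, e2⟩ := e
  have hr : T.r0 ≤ T.m := by
    simp only [okT, Bool.and_eq_true, Nat.ble_eq] at hT
    exact hT.2
  have h1 := hs (P n g • w) fun c hc => by
    obtain ⟨k, hk⟩ := (ex_left (all2_spec e1)).1 c hc
    rw [Bool.and_eq_true, Nat.blt_eq] at hk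
    have := eqw_eq (by simp [hD c hc, og]) (by simp [og, okT_tb hT (hk.1.trans_le hr)]) hk.2
    simp only [W_cons, W_nil, mul_one] at this
    rw [← mul_smul, this, mul_smul, h0 k hk.1]
  refine ⟨fun t ht => ?_, ?_⟩
  · obtain ⟨y, hy⟩ := (ex_left (all2_spec e2)).2 t ht
    exact (Bool.and_eq_true _ _ ▸ hy).1
  · have h2 := congrArg (fun z => f (P n h • z)) h1
    simp only [List.smul_sum, map_list_sum, List.map_map, smul_zero, map_zero] at h2
    rw [← h2]
    refine (sum_eq (all2_spec e2) fun y hy t ht => ?_).symm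
    rw [Bool.and_eq_true] at ht
    rw [← eqw_eq (by simp [hY y hy, og, oh]) (tw_ok hT ht.1) ht.2]
    simp [mul_smul]

theorem okS_val (hp : 0 < p) (hT : okT n T = true) {t u : ℕ} (e : okS n T t u = true) :
    Val n T f w (t :: List.replicate (p - 1) u) := by
  simp only [okS, Bool.and_eq_true] at e
  refine ⟨fun x hx => ?_, ?_⟩
  · rcases List.mem_cons.1 hx with rfl | hx
    · exact e.1.1
    · rw [List.eq_of_mem_replicate hx]; exact e.1.2
  · rw [List.map_cons, List.sum_cons, List.map_replicate, List.sum_replicate,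
      eqw_eq (tw_ok hT e.1.1) (tw_ok hT e.1.2) e.2, add_comm, ← succ_nsmul, Nat.sub_add_cancel hp]
    simp

/-- the packed row of a relation -/
noncomputable def row (D : ℕ) (mu la : ℕ → ℕ) (ts : List ℕ) : ℕ :=
  List.rec (motive := fun _ => ℕ) 0 (fun t _ ih => Nat.add (Nat.mul (Nat.mul (mu (t / 32768)) (la (t % 512)))
    (Nat.add (Nat.pow 1048576 (t / 512 % 64)) (Nat.pow 1048576 D))) ih) ts

/-- a linear combination -/
noncomputable def comb (l : List ℕ) : ℕ → ℕ :=
  List.rec (motive := fun _ => ℕ → ℕ) (fun _ => 0)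
    (fun a _ ih c => cond (Nat.beq c 0) 0 (Nat.add (Nat.mul (c % 8) a) (ih (c / 8)))) l

/-- a packed linear relation -/
def Z (D : ℕ) (x : ℕ → ZMod p) (N : ℕ) : Prop :=
  ∃ v : ℕ → ℕ, N = ∑ d ∈ Finset.range D, v d * (1048576 ^ d + 1048576 ^ D) ∧
    ∑ d ∈ Finset.range D, (v d : ZMod p) * x d = 0

theorem comb_Z {D : ℕ} {x : ℕ → ZMod p} {l : List ℕ} (h : ∀ a ∈ l, Z D x a) (c : ℕ) : Z D x (comb l c) := by
  induction l generalizing c with
  | nil => exact ⟨fun _ => 0, by simp [comb], by simp⟩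
  | cons a l ih =>
    change Z D x (cond (Nat.beq c 0) 0 (c % 8 * a + comb l (c / 8)))
    cases Nat.beq c 0
    · obtain ⟨u, u1, u2⟩ := h a (by simp)
      obtain ⟨v, v1, v2⟩ := ih (fun b hb => h b (by simp [hb])) (c / 8)
      refine ⟨fun d => c % 8 * u d + v d, ?_, ?_⟩
      · rw [cond_false, u1, v1, Finset.mul_sum, ← Finset.sum_add_distrib]
        exact Finset.sum_congr rfl fun d _ => by ring
      · have : ∑ d ∈ Finset.range D, ((c % 8 * u d + v d : ℕ) : ZMod p) * x d =
            ((c % 8 : ℕ) : ZMod p) * ∑ d ∈ Finset.range D, (u d : ZMod p) * x d +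
              ∑ d ∈ Finset.range D, (v d : ZMod p) * x d := by
          rw [Finset.mul_sum, ← Finset.sum_add_distrib]
          exact Finset.sum_congr rfl fun d _ => by push_cast; ring
        rw [this, u2, v2, mul_zero, add_zero]
    · exact ⟨fun _ => 0, by simp, by simp⟩

theorem row_Z {mu la : ℕ → ℕ} (hm : ∀ k < T.m, ∀ z, f (P n (T.tb k) • z) = mu k * f z)
    (hl : ∀ k < T.m, P n (T.tb k) • w = la k • w) {ts : List ℕ} (h : Val n T f w ts) :
    Z T.D (fun d => f (P n (T.rp d) • w)) (row T.D mu la ts) := by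
  have key : ∃ v : ℕ → ℕ, row T.D mu la ts = ∑ d ∈ Finset.range T.D, v d * (1048576 ^ d + 1048576 ^ T.D) ∧
      ∑ d ∈ Finset.range T.D, (v d : ZMod p) * f (P n (T.rp d) • w) =
        (ts.map fun t => f (W n (tw T t) • w)).sum := by
    have h1 := h.1
    clear h
    induction ts with
    | nil => exact ⟨fun _ => 0, by simp [row], by simp⟩
    | cons t ts ih =>
      obtain ⟨v, v1, v2⟩ := ih fun b hb => h1 b (by simp [hb])
      obtain ⟨a, b, c⟩ := inb_spec (h1 t (by simp))
      refine ⟨fun d => (if d = t / 512 % 64 then mu (t / 32768) * la (t % 512) else 0) + v d, ?_, ?_⟩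
      · change mu (t / 32768) * la (t % 512) * (1048576 ^ (t / 512 % 64) + 1048576 ^ T.D) +
          row T.D mu la ts = _
        simp only [add_mul (ite _ _ _), Finset.sum_add_distrib, ite_mul, zero_mul, Finset.sum_ite_eq',
          Finset.mem_range, b, if_true, v1]
      · simp only [Nat.cast_add, add_mul, Finset.sum_add_distrib, Nat.cast_ite, ite_mul, Nat.cast_zero, zero_mul,
          Finset.sum_ite_eq', Finset.mem_range, b, if_true, v2, List.map_cons, List.sum_cons]
        congr 1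
        simp only [tw, W_cons, W_nil, mul_one, mul_smul]
        rw [hm _ a, hl _ c, smul_comm, map_nsmul]
        push_cast; ring
  obtain ⟨v, v1, v2⟩ := key
  exact ⟨v, v1, v2.trans h.2⟩

theorem digit (B : ℕ) (D : ℕ) : ∀ (v : ℕ → ℕ) (s j : ℕ), (∀ d < D, v d < B) → j < D →
    (∑ d ∈ Finset.range D, v d * B ^ d + s * B ^ D) / B ^ j % B = v j := by
  induction D with
  | zero => intro _ _ _ _ h; omega
  | succ D ih =>
    intro v s j hv hj
    have hB : 0 < B := (Nat.zero_le _).trans_lt (hv 0 (by omega))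
    have e : ∑ d ∈ Finset.range (D + 1), v d * B ^ d + s * B ^ (D + 1) =
        v 0 + B * (∑ d ∈ Finset.range D, v (d + 1) * B ^ d + s * B ^ D) := by
      rw [Finset.sum_range_succ', mul_add, Finset.mul_sum,
        Finset.sum_congr rfl fun d _ => show B * (v (d + 1) * B ^ d) = v (d + 1) * B ^ (d + 1) by ring]
      ring
    rw [e]
    cases j with
    | zero => rw [pow_zero, Nat.div_one, Nat.add_mul_mod_self_left, Nat.mod_eq_of_lt (hv 0 (by omega))]
    | succ j =>
      rw [pow_succ', ← Nat.div_div_eq_div_mul, Nat.add_mul_div_left _ _ hB, Nat.div_eq_of_lt (hv 0 (by omega)),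
        zero_add]
      exact ih (fun d => v (d + 1)) s j (fun d hd => hv _ (by omega)) (by omega)

/-- the relation `N` gives the new zero `d` -/
def newz (p D known N d : ℕ) : Bool :=
  Nat.blt N (Nat.pow 1048576 (D + 1)) && Nat.blt d D && (List.range D).all fun j =>
    cond (Nat.beq j d) (Nat.beq (N / Nat.pow 1048576 j % 1048576 % p) 1)
      (Nat.testBit known j || Nat.beq (N / Nat.pow 1048576 j % 1048576 % p) 0)

theorem newz_spec {D known N d : ℕ} {x : ℕ → ZMod p} (h : Z D x N) (hk : ∀ j, known.testBit j = true → x j = 0)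
    (e : newz p D known N d = true) : x d = 0 := by
  obtain ⟨v, v1, v2⟩ := h
  simp only [newz, Bool.and_eq_true, Nat.blt_eq, List.all_eq_true, List.mem_range, Nat.pow_eq] at e
  obtain ⟨⟨e1, e2⟩, e3⟩ := e
  have e4 : N = ∑ d ∈ Finset.range D, v d * 1048576 ^ d + (∑ d ∈ Finset.range D, v d) * 1048576 ^ D := by
    rw [v1, Finset.sum_mul, ← Finset.sum_add_distrib]
    exact Finset.sum_congr rfl fun d _ => by ring
  have e5 : ∑ d ∈ Finset.range D, v d < 1048576 := by
    refine Nat.lt_of_mul_lt_mul_right (a := 1048576 ^ D) ?_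
    rw [← pow_succ']
    omega
  have e6 : ∀ j < D, N / 1048576 ^ j % 1048576 = v j := fun j hj => e4 ▸ digit _ _ v _ j (fun d hd =>
    (Finset.single_le_sum (fun _ _ => Nat.zero_le _) (Finset.mem_range.2 hd)).trans_lt e5) hj
  rw [Finset.sum_eq_single d (fun j hj hne => ?_) (fun h => absurd (Finset.mem_range.2 e2) h)] at v2
  · have := e3 d e2
    rw [Nat.beq_refl, cond_true, e6 d e2, Nat.beq_eq] at this
    rwa [← ZMod.natCast_mod, this, Nat.cast_one, one_mul] at v2
  · have := e3 j (Finset.mem_range.1 hj)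
    rw [show Nat.beq j d = false from Bool.eq_false_iff.2 fun h => hne (Nat.eq_of_beq_eq_true h), cond_false,
      e6 j (Finset.mem_range.1 hj), Bool.or_eq_true, Nat.beq_eq] at this
    rcases this with h | h
    · rw [hk j h, mul_zero]
    · rw [← ZMod.natCast_mod, h, Nat.cast_zero, zero_mul]

/-- the elimination; a step is coded by `(c * 64 + s) * 64 + d` -/
noncomputable def elim (p D : ℕ) (rows : List ℕ) (st : List ℕ) : ℕ → Bool :=
  List.rec (motive := fun _ => ℕ → Bool) (fun k => (List.range D).all fun j => Nat.testBit k j)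
    (fun s _ ih k => newz p D k (comb (rows.drop (s / 64 % 64)) (s / 4096)) (s % 64) &&
      ih (Nat.lor k (Nat.pow 2 (s % 64)))) st

theorem elim_spec {D : ℕ} {x : ℕ → ZMod p} {rows : List ℕ} (h : ∀ a ∈ rows, Z D x a) (st : List ℕ) :
    ∀ k : ℕ, (∀ j, k.testBit j = true → x j = 0) → elim p D rows st k = true → ∀ j < D, x j = 0 := by
  induction st with
  | nil => exact fun k hk e j hj => hk j (List.all_eq_true.1 e j (List.mem_range.2 hj))
  | cons s st ih =>
    intro k hk e
    have e' : (newz p D k (comb (rows.drop (s / 64 % 64)) (s / 4096)) (s % 64) &&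
      elim p D rows st (k ||| 2 ^ (s % 64))) = true := e
    rw [Bool.and_eq_true] at e'
    have := newz_spec (comb_Z (fun a ha => h a (List.mem_of_mem_drop ha)) _) hk e'.1
    refine ih _ (fun j hj => ?_) e'.2
    rw [Nat.testBit_or, Bool.or_eq_true, Nat.testBit_two_pow] at hj
    rcases hj with hj | hj
    · exact hk j hj
    · exact (of_decide_eq_true hj) ▸ this

/-- the data of the double coset decomposition -/
structure CV where
  (gs : List ℕ)
  (s r : ℕ)
  (wd sw : ℕ → List ℕ)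
  (c0 c2 : ℕ → ℕ → ℕ)
  (c1 : ℕ → ℕ)

/-- the table is closed under the generators -/
noncomputable def okN (n m : ℕ) (tb : ℕ → ℕ) (gs : List ℕ) (c0 : ℕ → ℕ → ℕ) : Bool :=
  (List.range m).all fun k => (List.range gs.length).all fun j =>
    Nat.blt (c0 k j) m && eqw n [tb k, gs.getD j 0] [tb (c0 k j)]

/-- the check of the double coset decomposition -/
noncomputable def okC (n : ℕ) (T : TB) (C : CV) : Bool :=
  (C.s :: C.gs).all (okc n) && Nat.ble C.r T.m && Nat.blt 0 T.D && Nat.blt 0 T.m && eqw n [] [T.rp 0, T.tb 0] &&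
    ((List.range T.m).all fun k => (C.wd k).all C.gs.contains && eqw n [T.tb k] (C.wd k)) &&
    okN n T.m T.tb C.gs C.c0 &&
    ((List.range T.m).all fun k => Nat.blt (C.c1 k / 512) C.r && Nat.blt (C.c1 k % 512) T.m &&
      eqw n [T.tb k, C.s] [T.tb (C.c1 k / 512), C.s, T.tb (C.c1 k % 512)]) &&
    ((List.range T.D).all fun d => (List.range C.r).all fun i =>
      inb T (C.c2 d i) && eqw n [T.rp d, T.tb i, C.s] (tw T (C.c2 d i))) &&
    (List.range n).all fun i => (C.sw i).all (C.s :: C.gs).contains && (List.range (n + 1)).all fun j =>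
      Nat.beq (app (C.sw i) j) (if j = i then i + 1 else if j = i + 1 then i else j)

theorem okN_spec {m : ℕ} {tb : ℕ → ℕ} {gs : List ℕ} {c0 : ℕ → ℕ → ℕ} (h : okN n m tb gs c0 = true)
    (ht : ∀ k < m, okc n (tb k) = true) (hg : ∀ g ∈ gs, okc n g = true) {k : ℕ} (hk : k < m) {g : ℕ}
    (h1 : g ∈ gs) : ∃ l < m, P n (tb k) * P n g = P n (tb l) := by
  simp only [okN, List.all_eq_true, List.mem_range, Bool.and_eq_true, Nat.blt_eq] at h
  obtain ⟨j, hj, rfl⟩ := List.getElem_of_mem h1
  obtain ⟨a, b⟩ := h k hk j hj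
  rw [List.getD_eq_getElem _ _ hj] at b
  exact ⟨_, a, by simpa using eqw_eq (by simp [ht k hk, hg _ h1]) (by simp [ht _ a]) b⟩

theorem okC_wd {C : CV} (hT : okT n T = true) (h : okC n T C = true) {k : ℕ} (hk : k < T.m) :
    (∀ c ∈ C.wd k, c ∈ C.gs) ∧ P n (T.tb k) = W n (C.wd k) := by
  simp only [okC, Bool.and_eq_true, List.all_eq_true, List.mem_range, List.contains_iff_mem] at h
  obtain ⟨⟨⟨⟨⟨⟨⟨⟨⟨h0, -⟩, -⟩, -⟩, -⟩, h5⟩, -⟩, -⟩, -⟩, -⟩ := h
  exact ⟨(h5 k hk).1, by
    simpa using eqw_eq (by simp [okT_tb hT hk]) (fun c hc => h0 c (.tail _ ((h5 k hk).1 c hc))) (h5 k hk).2⟩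

theorem cover {C : CV} (hT : okT n T = true) (h : okC n T C = true) (L : Submonoid (Perm (Fin (n + 1))))
    (hL : ∀ k < T.m, P n (T.tb k) ∈ L) (x : Perm (Fin (n + 1))) :
    ∃ b ∈ L, ∃ d < T.D, ∃ k < T.m, x = b * P n (T.rp d) * P n (T.tb k) := by
  have hw := fun k hk => okC_wd (k := k) hT h hk
  simp only [okC, Bool.and_eq_true, List.all_eq_true, List.mem_range, List.contains_iff_mem, Nat.blt_eq,
    Nat.ble_eq, Nat.beq_eq] at h
  obtain ⟨⟨⟨⟨⟨⟨⟨⟨⟨h0, h1⟩, h2⟩, h3⟩, h4⟩, -⟩, h6⟩, h7⟩, h8⟩, h9⟩ := h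
  obtain ⟨Q, hQ⟩ : ∃ Q : Perm (Fin (n + 1)) → Prop,
    Q = fun x => ∃ b ∈ L, ∃ d < T.D, ∃ k < T.m, x = b * P n (T.rp d) * P n (T.tb k) := ⟨_, rfl⟩
  have os : okc n C.s = true := h0 _ (.head _)
  have q1 : ∀ g ∈ C.gs, ∀ x, Q x → Q (x * P n g) := by
    subst hQ
    rintro g hg _ ⟨b, hb, d, hd, k, hk, rfl⟩
    obtain ⟨l, hl, e⟩ := okN_spec h6 (fun k hk => okT_tb hT hk) (fun g hg => h0 g (.tail _ hg)) hk hg
    exact ⟨b, hb, d, hd, l, hl, by rw [mul_assoc, e]⟩
  have wq : ∀ S : List ℕ, (∀ g ∈ S, ∀ x, Q x → Q (x * P n g)) → ∀ l : List ℕ, (∀ c ∈ l, c ∈ S) →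
      ∀ x, Q x → Q (x * W n l) := fun S hS l => by
    induction l with
    | nil => intro _ x hx; simpa using hx
    | cons c l ih =>
      intro hl x hx
      rw [W_cons, ← mul_assoc]
      exact ih (fun d hd => hl d (.tail _ hd)) _ (hS c (hl c (.head _)) x hx)
  have q2 : ∀ x, Q x → Q (x * P n C.s) := by
    intro x hx
    rw [hQ] at hx
    obtain ⟨b, hb, d, hd, k, hk, rfl⟩ := hx
    obtain ⟨⟨a1, a2⟩, a3⟩ := h7 k hk
    obtain ⟨b1, b2⟩ := h8 d hd _ a1
    have e1 := eqw_eq (by simp [okT_tb hT hk, os]) (by simp [okT_tb hT a2, okT_tb hT (a1.trans_le h1), os]) a3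
    have e2 := eqw_eq (by simp [okT_rp hT hd, okT_tb hT (a1.trans_le h1), os]) (tw_ok hT b1) b2
    obtain ⟨c1, c2, c3⟩ := inb_spec b1
    simp only [W_cons, W_nil, mul_one, tw] at e1 e2
    have := wq _ q1 _ (hw _ a2).1 (b * P n (T.tb (C.c2 d (C.c1 k / 512) / 32768)) * P n (T.rp _) * P n (T.tb _))
      (by rw [hQ]; exact ⟨_, L.mul_mem hb (hL _ c1), _, c2, _, c3, rfl⟩)
    rw [← (hw _ a2).2] at this
    simp only [mul_assoc] at this e1 e2 ⊢
    rw [e1]
    convert this using 2
    simpa only [mul_assoc] using congrArg (· * P n (T.tb (C.c1 k % 512))) e2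
  have q3 : ∀ y ∈ Submonoid.closure (Set.range fun i : Fin n => swap i.castSucc i.succ), ∀ x, Q x → Q (x * y) := by
    intro y hy
    induction hy using Submonoid.closure_induction with
    | one => intro x hx; simpa using hx
    | mul y z _ _ a b => intro x hx; rw [← mul_assoc]; exact b _ (a _ hx)
    | mem y hy =>
      obtain ⟨i, rfl⟩ := hy
      obtain ⟨a, b⟩ := h9 i i.2
      have : W n (C.sw i) = swap i.castSucc i.succ := by
        ext j
        rw [W_val fun c hc => h0 c (a c hc), b j j.2, swap_apply_def]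
        simp only [Fin.ext_iff, Fin.val_castSucc, Fin.val_succ]
        split_ifs <;> rfl
      simp only
      rw [← this]
      exact wq (C.s :: C.gs) (List.forall_mem_cons.2 ⟨q2, q1⟩) _ a
  have := q3 x (Perm.mclosure_swap_castSucc_succ n ▸ Submonoid.mem_top x) 1 (hQ ▸ ⟨1, L.one_mem, 0, h2, 0, h3, by
    simpa using eqw_eq (by simp) (by simp [okT_rp hT h2, okT_tb hT h3]) h4⟩)
  rwa [one_mul, hQ] at this

theorem all_zero {C : CV} (hT : okT n T = true) (h : okC n T C = true) {mu la : ℕ → ℕ}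
    (hm : ∀ k < T.m, ∀ z, f (P n (T.tb k) • z) = mu k * f z) (hl : ∀ k < T.m, P n (T.tb k) • w = la k • w)
    {rels : List (List ℕ)} (hr : ∀ r ∈ rels, Val n T f w r) {st : List ℕ}
    (e : elim p T.D (rels.map (row T.D mu la)) st 0 = true) (g : Perm (Fin (n + 1))) : f (g • w) = 0 := by
  have h1 := elim_spec (x := fun d => f (P n (T.rp d) • w)) (fun a ha => by
    obtain ⟨r, h2, rfl⟩ := List.mem_map.1 ha
    exact row_Z hm hl (hr r h2)) st 0 (by simp) e
  obtain ⟨b, hb, d, hd, k, hk, rfl⟩ := cover hT h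
    { carrier := {b | ∀ z, f z = 0 → f (b • z) = 0}
      one_mem' := fun z hz => by rwa [one_smul]
      mul_mem' := fun ha hb z hz => by rw [mul_smul]; exact ha _ (hb _ hz) }
    (fun k hk z hz => by rw [hm k hk, hz, mul_zero]) g
  rw [mul_smul, mul_smul]
  exact hb _ (by rw [hl k hk, smul_comm, map_nsmul, h1 d hd, smul_zero])

theorem pgroup {m e : ℕ} {tb : ℕ → ℕ} {gs : List ℕ} {c0 : ℕ → ℕ → ℕ} (h : okN n m tb gs c0 = true)
    (ht : ∀ k < m, okc n (tb k) = true) (hg : ∀ g ∈ gs, okc n g = true) (h0 : 0 < m) (h1 : eqw n [tb 0] [] = true)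
    (h2 : ∀ k < m, eqw n (List.replicate (p ^ e) (tb k)) [] = true) :
    IsPGroup p (Subgroup.closure (P n '' {g | g ∈ gs})) := by
  rintro ⟨x, hx⟩
  have : ∃ k < m, x = P n (tb k) := by
    rw [← Subgroup.mem_toSubmonoid, Subgroup.closure_toSubmonoid_of_finite] at hx
    induction hx using Submonoid.closure_induction_right with
    | one => exact ⟨0, h0, by simpa using (eqw_eq (by simp [ht 0 h0]) (by simp) h1).symm⟩
    | mul_right x _ y hy ih =>
      obtain ⟨k, hk, rfl⟩ := ih
      obtain ⟨g, hg', rfl⟩ := hy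
      exact okN_spec h ht hg hk hg'
  obtain ⟨k, hk, rfl⟩ := this
  refine ⟨e, Subtype.ext ?_⟩
  simpa [W_rep] using eqw_eq (fun c hc => List.eq_of_mem_replicate hc ▸ ht k hk) (by simp) (h2 k hk)

end Cfsg.Agent.H61.AM
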