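/-
Modules without vectors fixed by nonsolvable groups: fixed vectors, duals, coinduction.
-/
import Cfsg.Agent.H61.AltM

set_option autoImplicit false

namespace Cfsg.Agent.H61.AM

open Equiv
open scoped commutatorElement

universe u

section
variable {Γ : Type*} [Group Γ] {p : ℕ} [Fact p.Prime] {V : Type u} [AddCommGroup V] [DistribMulAction Γ V]

theorem exists_fix {S : Subgroup Γ} (hS : IsPGroup p S) [Finite V] [Nontrivial V] (hp : ∀ v : V, p • v = 0) :
    ∃ v : V, v ≠ 0 ∧ ∀ g ∈ S, g • v = v := by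
  obtain ⟨v, hv⟩ := exists_ne (0 : V)
  obtain ⟨b, hb, h0⟩ := hS.exists_fixed_point_of_prime_dvd_card_of_fixed_point V
    (addOrderOf_eq_prime (hp v) hv ▸ addOrderOf_dvd_natCard v) (a := 0) fun g => smul_zero g
  exact ⟨b, h0.symm, fun g hg => hb ⟨g, hg⟩⟩

/-- the dual module -/
def Du (p : ℕ) (V : Type u) [AddCommGroup V] : Type u := V →+ ZMod p

instance : AddCommGroup (Du p V) := inferInstanceAs (AddCommGroup (V →+ ZMod p))

instance [Finite V] : Finite (Du p V) :=
  Finite.of_injective (α := V →+ ZMod p) (fun f => (f : V → ZMod p)) DFunLike.coe_injective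

/-- the underlying map -/
def Du.h (f : Du p V) : V →+ ZMod p := f

instance : DistribMulAction Γ (Du p V) where
  smul g f := f.h.comp (DistribMulAction.toAddMonoidHom V g⁻¹)
  one_smul f := AddMonoidHom.ext fun z => show f.h ((1 : Γ)⁻¹ • z) = f.h z by simp
  mul_smul a b f := AddMonoidHom.ext fun z => show f.h ((a * b)⁻¹ • z) = f.h (b⁻¹ • a⁻¹ • z) by
    rw [mul_inv_rev, mul_smul]
  smul_zero _ := rfl
  smul_add _ _ _ := rfl

theorem Du.smul_h (g : Γ) (f : Du p V) (z : V) : (g • f).h z = f.h (g⁻¹ • z) := rfl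

theorem Du.nsmul_h (k : ℕ) (f : Du p V) (z : V) : (k • f).h z = k * f.h z := by
  rw [← nsmul_eq_mul]; rfl

theorem Du.hp (f : Du p V) : p • f = 0 := AddMonoidHom.ext fun z => (Du.nsmul_h p f z).trans (by simp; rfl)

theorem ex_dual (K : Type*) [Field K] [Module K V] {v : V} (hv : v ≠ 0) : ∃ φ : V →ₗ[K] K, φ v ≠ 0 :=
  Module.Projective.exists_dual_ne_zero K hv

theorem Du.nontrivial [Nontrivial V] (hp : ∀ v : V, p • v = 0) : Nontrivial (Du p V) := by
  letI : Module (ZMod p) V := AddCommGroup.zmodModule hp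
  obtain ⟨v, hv⟩ := exists_ne (0 : V)
  obtain ⟨φ, hφ⟩ := ex_dual (ZMod p) hv
  exact ⟨⟨φ.toAddMonoidHom, 0, fun h => hφ (DFunLike.congr_fun (F := V →+ ZMod p) h v)⟩⟩

theorem Du.eig {g : Γ} {f : Du p V} {c k : ℕ} (h : g • f = c • f) (hg : g ^ (k + 1) = 1) (z : V) :
    f.h (g • z) = (c ^ k : ℕ) * f.h z := by
  have h1 : ∀ j : ℕ, g ^ j • f = c ^ j • f := fun j => by
    induction j with
    | zero => simp
    | succ j ih => rw [pow_succ', mul_smul, ih, smul_comm, h, pow_succ, mul_smul]
  rw [← Du.nsmul_h, ← h1, Du.smul_h, inv_eq_of_mul_eq_one_right (pow_succ g k ▸ hg)]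

end

theorem good_ind {Γ : Type*} [Group Γ] {p : ℕ}
    (H : ∀ (V : Type u) [AddCommGroup V] [DistribMulAction Γ V] [Finite V] [Nontrivial V], (∀ v : V, p • v = 0) →
      Good Γ V → ∃ (w : V) (f : V →+ ZMod p), w ≠ 0 ∧ f ≠ 0 ∧ ∀ g : Γ, f (g • w) = 0) (k : ℕ) :
    ∀ (V : Type u) [AddCommGroup V] [DistribMulAction Γ V] [Finite V], Nat.card V = k → (∀ v : V, p • v = 0) →
      Good Γ V → Subsingleton V := by
  induction k using Nat.strong_induction_on with
  | _ k ih =>
  intro V _ _ _ hk hp hG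
  by_contra hn
  haveI := not_subsingleton_iff_nontrivial.1 hn
  obtain ⟨w, f, hw, hf, h⟩ := H V hp hG
  let U : AddSubgroup V :=
    { carrier := {v | ∀ g : Γ, f (g • v) = 0}
      zero_mem' := fun g => by simp
      add_mem' := fun a b g => by rw [smul_add, map_add, a g, b g, add_zero]
      neg_mem' := fun a g => by rw [smul_neg, map_neg, a g, neg_zero] }
  letI : DistribMulAction Γ U :=
    { smul := fun g v => ⟨g • v.1, fun x => by rw [← mul_smul]; exact v.2 _⟩
      one_smul := fun v => Subtype.ext (one_smul Γ v.1)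
      mul_smul := fun a b v => Subtype.ext (mul_smul a b v.1)
      smul_zero := fun a => Subtype.ext (smul_zero a)
      smul_add := fun a x y => Subtype.ext (smul_add a x.1 y.1) }
  have hU : U ≠ ⊤ := fun e => hf (AddMonoidHom.ext fun z => by
    have : z ∈ U := e ▸ AddSubgroup.mem_top z
    simpa using this 1)
  obtain ⟨z, hz⟩ := not_forall.1 (mt (AddSubgroup.eq_top_iff' U).2 hU)
  have hlt : Nat.card U < k := hk ▸ Finite.card_subtype_lt hz
  have := ih _ hlt U rfl (fun v => Subtype.ext (hp v.1)) fun z a u v t h1 h2 h3 =>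
    Subtype.ext (hG z.1 a u v t (congrArg Subtype.val h1) (congrArg Subtype.val h2) (congrArg Subtype.val h3))
  exact hw (congrArg Subtype.val (Subsingleton.elim (⟨w, h⟩ : U) 0))

theorem Tri.conj {Γ : Type*} [Group Γ] {a u v : Γ} (h : Tri a u v) (x : Γ) :
    Tri (x * a * x⁻¹) (x * u * x⁻¹) (x * v * x⁻¹) := by
  refine ⟨fun e => h.1 (conj_eq_one_iff.1 e), ?_⟩
  conv_lhs => rw [h.2]
  simp only [commutatorElement_def]
  group

/-- coinduction from the alternating to the symmetric group -/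
theorem coind {α : Type} [Fintype α] [DecidableEq α] {p : ℕ}
    (H : ∀ (V : Type u) [AddCommGroup V] [DistribMulAction (Perm α) V] [Finite V], (∀ v : V, p • v = 0) →
      Good (Perm α) V → Subsingleton V) {G : Type*} [Group G] (π : G →* Perm α)
    (hs : ∀ x : Perm α, Perm.sign x = 1 → ∃ g, π g = x) {V : Type u} [AddCommGroup V] [DistribMulAction G V]
    [Finite V] [Nontrivial V] (hp : ∀ v : V, p • v = 0) (hk : ∀ g, π g = 1 → ∀ v : V, g • v = v) :
    ∃ v : V, v ≠ 0 ∧ ¬ Group.IsSolvable ((MulAction.stabilizer G v).map π) := by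
  classical
  by_contra hn
  push Not at hn
  let U : AddSubgroup (Perm α → V) :=
    { carrier := {F | ∀ g x, F (π g * x) = g • F x}
      zero_mem' := fun g x => by simp
      add_mem' := fun a b g x => by simp [a g x, b g x]
      neg_mem' := fun a g x => by simp [a g x] }
  letI : DistribMulAction (Perm α) U :=
    { smul := fun y F => ⟨fun x => F.1 (x * y), fun g x => by simp only [mul_assoc]; exact F.2 g _⟩
      one_smul := fun F => Subtype.ext (funext fun x => congrArg F.1 (mul_one x))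
      mul_smul := fun a b F => Subtype.ext (funext fun x => congrArg F.1 (mul_assoc x a b).symm)
      smul_zero := fun a => rfl
      smul_add := fun a x y => rfl }
  have hsub := H U (fun F => Subtype.ext (funext fun x => hp (F.1 x))) fun F a u v t h1 h2 h3 => by
    refine Subtype.ext (funext fun x => ?_)
    by_contra h0
    have key : ∀ y : Perm α, Perm.sign y = 1 → y • F = F →
        x * y * x⁻¹ ∈ (MulAction.stabilizer G (F.1 x)).map π := fun y hy e => by
      obtain ⟨g, hg⟩ := hs (x * y * x⁻¹) (by simp [hy])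
      refine ⟨g, ?_, hg⟩
      change g • F.1 x = F.1 x
      rw [← F.2 g x, hg, inv_mul_cancel_right]
      exact congrFun (congrArg Subtype.val e) x
    refine (t.conj x).not_solvable (key a ?_ h1) (key _ (by simp) h2) (key _ (by simp) h3) (hn _ h0)
    rw [t.2, map_commutatorElement, commutatorElement_eq_one_iff_mul_comm, mul_comm]
  obtain ⟨w, hw⟩ := exists_ne (0 : V)
  let F : U := ⟨fun x => if h : ∃ g, π g = x then h.choose • w else 0, fun g x => by
    beta_reduce
    by_cases h : ∃ k, π k = x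
    · have h' : ∃ k, π k = π g * x := ⟨g * h.choose, by rw [map_mul, h.choose_spec]⟩
      rw [dif_pos h, dif_pos h', ← mul_smul, ← inv_smul_eq_iff, ← mul_smul]
      exact hk _ (by rw [map_mul, map_inv, map_mul, h.choose_spec, h'.choose_spec, inv_mul_cancel]) _
    · rw [dif_neg h, smul_zero, dif_neg]
      rintro ⟨k, hk⟩
      exact h ⟨g⁻¹ * k, by rw [map_mul, map_inv, hk, inv_mul_cancel_left]⟩⟩
  have h1 : F.1 1 = 0 := congrFun (congrArg Subtype.val (Subsingleton.elim F 0)) 1
  have h2 : ∃ g, π g = 1 := ⟨1, map_one π⟩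
  exact hw ((hk _ h2.choose_spec w).symm.trans ((dif_pos h2).symm.trans h1))

/-- an eigenvector of an element of order four in characteristic five -/
theorem eig4 {Γ V : Type*} [Group Γ] [AddCommGroup V] [DistribMulAction Γ V] (hp : ∀ v : V, 5 • v = 0)
    (U : AddSubgroup V) {a : Γ} (ha : a ^ 4 = 1) (hU : ∀ v ∈ U, a • v ∈ U) {v : V} (hv : v ∈ U) (h0 : v ≠ 0) :
    ∃ w ∈ U, w ≠ 0 ∧ ∃ m < 4, a • w = 2 ^ m • w := by
  have h4 : a • a • a • a • v = v := by
    rw [← mul_smul, ← mul_smul, ← mul_smul, show a * a * a * a = a ^ 4 by simp [pow_succ], ha, one_smul]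
  have m1 := hU _ hv
  have m2 := hU _ m1
  have m3 := hU _ m2
  have key : ∀ i j k : ℕ, v + i • a • v + j • a • a • v + k • a • a • a • v ∈ U := fun i j k =>
    U.add_mem (U.add_mem (U.add_mem hv (U.nsmul_mem m1 _)) (U.nsmul_mem m2 _)) (U.nsmul_mem m3 _)
  have act : ∀ i j k : ℕ, a • (v + i • a • v + j • a • a • v + k • a • a • a • v) =
      a • v + i • a • a • v + j • a • a • a • v + k • v := fun i j k => by
    simp only [smul_add, smul_comm a _, h4]
  obtain ⟨x, hx⟩ : ∃ x, x = a • v := ⟨_, rfl⟩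
  obtain ⟨y, hy⟩ : ∃ y, y = a • x := ⟨_, rfl⟩
  obtain ⟨z, hz⟩ : ∃ z, z = a • y := ⟨_, rfl⟩
  simp only [← hx, ← hy, ← hz] at key act
  by_contra hn
  push Not at hn
  have e0 : v + 1 • x + 1 • y + 1 • z = 0 := by
    by_contra h
    exact hn _ (key 1 1 1) h 0 (by norm_num) (by rw [act]; abel)
  have e1 : v + 3 • x + 4 • y + 2 • z = 0 := by
    by_contra h
    refine hn _ (key 3 4 2) h 1 (by norm_num) ?_
    rw [act]
    linear_combination (norm := abel_nf) -hp x - hp y
  have e2 : v + 4 • x + 1 • y + 4 • z = 0 := by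
    by_contra h
    refine hn _ (key 4 1 4) h 2 (by norm_num) ?_
    rw [act]
    linear_combination (norm := abel_nf) -(3 • hp x) - 3 • hp z
  have e3 : v + 2 • x + 4 • y + 3 • z = 0 := by
    by_contra h
    refine hn _ (key 2 4 3) h 3 (by norm_num) ?_
    rw [act]
    linear_combination (norm := abel_nf) -hp v - 3 • hp x - 6 • hp y - 4 • hp z
  refine h0 ?_
  linear_combination (norm := abel_nf) hp v + 2 • hp x + 2 • hp y + 2 • hp z - e0 - e1 - e2 - e3

/-- a packed table -/
def dg (N b i : ℕ) : ℕ := Nat.mod (Nat.shiftRight N (Nat.mul b i)) (Nat.pow 2 b)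

/-- the list of all relations -/
def pool (p : ℕ) (RL : List (ℕ × ℕ × ℕ × List ℕ × List ℕ)) (SL : List ℕ) : List (List ℕ) :=
  RL.map (·.2.2.2.2) ++ SL.map fun t => t :: List.replicate (p - 1) (t / 512 % 64 * 512)

/-- the check of all relations -/
noncomputable def okP (n : ℕ) (T : TB) (KL : List KT) (RL : List (ℕ × ℕ × ℕ × List ℕ × List ℕ)) (SL : List ℕ) :
    Bool :=
  (RL.all fun r => (KL[r.1]?).any fun K => okR n T K r.2.1 r.2.2.1 r.2.2.2.1 r.2.2.2.2) &&
    SL.all fun t => okS n T t (t / 512 % 64 * 512)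

/-- the check of the elimination -/
noncomputable def okE (p : ℕ) (T : TB) (mu la : ℕ → ℕ) (L : List (List ℕ)) (c : List ℕ × List ℕ) : Bool :=
  elim p T.D ((c.1.map (L.getD · [])).map (row T.D mu la)) c.2 0

theorem finish {n p : ℕ} {V : Type*} [AddCommGroup V] [DistribMulAction (Perm (Fin (n + 1))) V]
    {f : V →+ ZMod p} {w : V} {T : TB} {C : CV} {KL : List KT} {RL : List (ℕ × ℕ × ℕ × List ℕ × List ℕ)}
    {SL : List ℕ} {c : List ℕ × List ℕ} {mu la : ℕ → ℕ} (hp : 0 < p) (hG : Good (Perm (Fin (n + 1))) V)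
    (hT : okT n T = true) (hC : okC n T C = true) (hK : KL.all (okK n) = true) (hP : okP n T KL RL SL = true)
    (hE : okE p T mu la (pool p RL SL) c = true) (h0 : ∀ k < T.r0, P n (T.tb k) • w = w)
    (hm : ∀ k < T.m, ∀ z, f (P n (T.tb k) • z) = mu k * f z) (hl : ∀ k < T.m, P n (T.tb k) • w = la k • w)
    (g : Perm (Fin (n + 1))) : f (g • w) = 0 := by
  refine all_zero hT hC hm hl (fun r hr => ?_) hE g
  obtain ⟨i, -, rfl⟩ := List.mem_map.1 hr
  rcases Nat.lt_or_ge i (pool p RL SL).length with h | h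
  · rw [List.getD_eq_getElem _ _ h]
    rw [okP, Bool.and_eq_true, List.all_eq_true, List.all_eq_true] at hP
    rcases List.mem_append.1 (List.getElem_mem h) with m | m
    · obtain ⟨r, hr, e⟩ := List.mem_map.1 m
      obtain ⟨K, h1, h2⟩ := (Option.any_eq_true _ _).1 (hP.1 r hr)
      exact e ▸ okR_val hG hT h0 (List.all_eq_true.1 hK K (List.mem_of_getElem? h1)) h2
    · obtain ⟨t, ht, e⟩ := List.mem_map.1 m
      exact e ▸ okS_val hp hT (hP.2 t ht)
  · rw [List.getD_eq_default _ _ h]
    exact ⟨by simp, rfl⟩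

end Cfsg.Agent.H61.AM
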