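/-
Groups in which non-central `p`-elements have solvable centralisers: alternating sections.
-/
import Cfsg.Agent.H61.AltN
import Cfsg.Agent.H1.Glauberman

set_option autoImplicit false

namespace Cfsg.Agent.H61.AM

open Equiv Subgroup
open scoped commutatorElement

universe u

/-- non-central `p`-elements have solvable centralisers -/
def Hyp (p : ℕ) (G : Type*) [Group G] : Prop :=
  ∀ x : G, x ∉ center G → (∃ k : ℕ, orderOf x = p ^ k) → Group.IsSolvable (centralizer ({x} : Set G))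

variable {p : ℕ} [hp : Fact p.Prime]

omit hp in
theorem Hyp.inj {G H : Type*} [Group G] [Group H] (h : Hyp p G) (φ : H →* G) (hφ : Function.Injective φ) :
    Hyp p H := by
  intro x hx ⟨k, hk⟩
  haveI := h (φ x) (fun e => hx (mem_center_iff.2 fun g => hφ (by
    rw [map_mul, map_mul, mem_center_iff.1 e]))) ⟨k, by rw [orderOf_injective φ hφ, hk]⟩
  refine Group.isSolvable_of_isSolvable_injective (f := (φ.comp (centralizer ({x} : Set H)).subtype).codRestrict
    (centralizer ({φ x} : Set G)) fun g => ?_) fun a b e => Subtype.ext (hφ (congrArg Subtype.val e))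
  rw [mem_centralizer_singleton_iff, MonoidHom.comp_apply, ← map_mul, ← map_mul]
  exact congrArg φ (mem_centralizer_singleton_iff.1 g.2)

variable {G : Type u} [Group G] [Finite G]

theorem Hyp.quot (h : Hyp p G) (M : Subgroup G) [M.Normal] (hM : p.Coprime (Nat.card M)) : Hyp p (G ⧸ M) := by
  intro y hy ⟨k, hk⟩
  obtain ⟨y0, rfl⟩ := QuotientGroup.mk_surjective y
  obtain ⟨c, c1, c2⟩ := Nat.chineseRemainder (hM.pow_left k) 1 0
  have e : ((y0 ^ c : G) : G ⧸ M) = y0 := by
    rw [QuotientGroup.mk_pow, pow_eq_pow_iff_modEq.2 (hk ▸ c1), pow_one]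
  have h1 : (y0 ^ c) ^ p ^ k = 1 := by
    obtain ⟨m, rfl⟩ := Nat.modEq_zero_iff_dvd.1 c2
    have : y0 ^ p ^ k ∈ M := by rw [← QuotientGroup.eq_one_iff, QuotientGroup.mk_pow, ← hk, pow_orderOf_eq_one]
    rw [← pow_mul, mul_comm, pow_mul, pow_mul,
      show (y0 ^ p ^ k) ^ Nat.card M = 1 from congrArg Subtype.val (pow_card_eq_one' (x := (⟨_, this⟩ : M))), one_pow]
  rw [← e] at hy ⊢
  generalize y0 ^ c = x at hy h1 ⊢
  obtain ⟨j, -, hj⟩ := (Nat.dvd_prime_pow hp.out).1 (orderOf_dvd_of_pow_eq_one h1)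
  haveI := h x (fun e => hy (mem_center_iff.2 fun g => by
    obtain ⟨g, rfl⟩ := QuotientGroup.mk_surjective g
    rw [← QuotientGroup.mk_mul, ← QuotientGroup.mk_mul, mem_center_iff.1 e])) ⟨j, hj⟩
  refine H1.solvable_of_le (N := (centralizer ({x} : Set G)).map (QuotientGroup.mk' M)) (fun g hg => ?_)
    (Group.isSolvable_of_surjective (MonoidHom.subgroupMap_surjective _ _))
  obtain ⟨g, rfl⟩ := QuotientGroup.mk_surjective g
  obtain ⟨n, hn, h2⟩ := H1.coset_fixed (zpowers x) M le_normalizer_of_normal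
    (by rw [Nat.card_zpowers, hj]; exact hM.pow_left j) (.inl inferInstance) g (by
      rintro _ ⟨i, rfl⟩
      have : Commute (g : G ⧸ M) ((x : G ⧸ M) ^ i) :=
        Commute.zpow_right (mem_centralizer_singleton_iff.1 hg) i
      rw [← QuotientGroup.eq_one_iff]
      simp only [QuotientGroup.mk_mul, QuotientGroup.mk_inv, QuotientGroup.mk_zpow]
      rw [mul_assoc (g : G ⧸ M)⁻¹, ← this.eq]
      group)
  refine ⟨g * n, mem_centralizer_singleton_iff.2 (h2 x (mem_zpowers x)).symm, ?_⟩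
  simp [(QuotientGroup.eq_one_iff n).2 hn]

theorem red {α : Type} [Fintype α] [DecidableEq α]
    (K : ∀ (H : Type u) [Group H] [Finite H] (π : H →* Perm α), (∀ x, Perm.sign x = 1 → ∃ h, π h = x) →
      IsPGroup p π.ker → ¬ Hyp p H) (k : ℕ) :
    ∀ (H : Type u) [Group H] [Finite H] (π : H →* Perm α), Nat.card H = k →
      (∀ x, Perm.sign x = 1 → ∃ h, π h = x) → ¬ Hyp p H := by
  induction k using Nat.strong_induction_on with
  | _ k ih =>
  intro H _ _ π hk hs h
  by_cases hP : IsPGroup p π.ker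
  · exact K H π hs hP h
  obtain ⟨q, hq, h1, h2⟩ : ∃ q : ℕ, q.Prime ∧ q ∣ Nat.card π.ker ∧ q ≠ p := by
    by_contra hn
    push Not at hn
    exact hP (.of_card (Nat.eq_prime_pow_of_unique_prime_dvd Nat.card_pos.ne' fun a b => hn _ a b))
  haveI := Fact.mk hq
  obtain ⟨Q⟩ : Nonempty (Sylow q π.ker) := inferInstance
  have hF := Q.normalizer_sup_eq_top
  obtain ⟨M, hM⟩ : ∃ M, M = (Q : Subgroup π.ker).map π.ker.subtype := ⟨_, rfl⟩
  rw [← hM] at hF
  by_cases hn : normalizer (M : Set H) = ⊤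
  · haveI := normalizer_eq_top_iff.1 hn
    have hle : M ≤ π.ker := hM ▸ map_subtype_le _
    have hc : Nat.card M = Nat.card Q := hM ▸ card_map_of_injective (subtype_injective _)
    obtain ⟨e, he⟩ := IsPGroup.iff_card.1 Q.isPGroup'
    have hne : 1 < Nat.card M := hc ▸ Nat.lt_of_lt_of_le hq.one_lt (Nat.le_of_dvd Nat.card_pos (Q.dvd_card_of_dvd_card h1))
    refine ih _ ?_ (H ⧸ M) (QuotientGroup.lift M π hle) rfl (fun x hx => ?_) (h.quot M ?_)
    · rw [← hk, card_eq_card_quotient_mul_card_subgroup M]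
      exact lt_mul_of_one_lt_right Nat.card_pos hne
    · obtain ⟨g, hg⟩ := hs x hx
      exact ⟨g, hg⟩
    · rw [hc, he]
      exact ((Nat.coprime_primes hp.out hq).2 h2.symm).pow_right e
  · obtain ⟨z, hz⟩ := not_forall.1 (mt (eq_top_iff' _).2 hn)
    refine ih _ (hk ▸ Finite.card_subtype_lt hz) (normalizer (M : Set H)) (π.comp (Subgroup.subtype _)) rfl
      (fun x hx => ?_) (h.inj _ (subtype_injective _))
    obtain ⟨g, rfl⟩ := hs x hx
    obtain ⟨a, ha, b, hb, rfl⟩ := mem_sup_of_normal_right.1 (hF ▸ mem_top g)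
    exact ⟨⟨a, ha⟩, by simp [MonoidHom.mem_ker.1 hb]⟩

omit [Finite G] in
theorem fin {Γ : Type*} [Group Γ] (π : G →* Γ) {x : G} {k : ℕ} (h1 : x ^ p ^ k = 1) (h2 : x ∉ center G)
    {S : Subgroup G} (h3 : ∀ g ∈ S, g * x * g⁻¹ * x⁻¹ ∈ center G) (h4 : ¬ Group.IsSolvable (S.map π)) :
    ¬ Hyp p G := fun h => by
  obtain ⟨j, -, hj⟩ := (Nat.dvd_prime_pow hp.out).1 (orderOf_dvd_of_pow_eq_one h1)
  haveI := h x h2 ⟨j, hj⟩
  let φ : S →* center G := MonoidHom.mk' (fun g => ⟨_, h3 g.1 g.2⟩) fun a b => Subtype.ext (by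
    have := mem_center_iff.1 (h3 b.1 b.2)
    simp only [coe_mul]
    rw [this (a * x * (a : G)⁻¹ * x⁻¹)]
    calc _ = (a : G) * (b * x * (b : G)⁻¹ * x⁻¹) * (x * (a : G)⁻¹ * x⁻¹) := by group
      _ = _ := by rw [this a]; group)
  haveI : Group.IsSolvable φ.ker := Group.isSolvable_of_isSolvable_injective
    (f := (S.subtype.comp φ.ker.subtype).codRestrict (centralizer ({x} : Set G)) fun g => by
      have : (g.1 : G) * x * (g.1 : G)⁻¹ * x⁻¹ = 1 := congrArg Subtype.val (MonoidHom.mem_ker.1 g.2)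
      rw [mem_centralizer_singleton_iff]
      exact mul_inv_eq_iff_eq_mul.1 (mul_inv_eq_one.1 this))
    fun a b e => Subtype.ext (Subtype.ext (congrArg (fun t : centralizer ({x} : Set G) => t.1) e))
  haveI : Group.IsSolvable (center G) := Group.isSolvable_of_comm fun a b => Subtype.ext (mem_center_iff.1 b.2 a)
  haveI : Group.IsSolvable S := Group.isSolvable_of_ker_le_range φ.ker.subtype φ (by simp)
  exact h4 (Group.isSolvable_of_surjective (MonoidHom.subgroupMap_surjective _ _))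

theorem modc {α : Type} [Fintype α] [DecidableEq α]
    (H : ∀ (V : Type u) [AddCommGroup V] [DistribMulAction (Perm α) V] [Finite V], (∀ v : V, p • v = 0) →
      Good (Perm α) V → Subsingleton V) (π : G →* Perm α) (hs : ∀ x, Perm.sign x = 1 → ∃ h, π h = x)
    (hP : IsPGroup p π.ker) (hZ : ¬ π.ker ≤ center G) : ¬ Hyp p G := by
  obtain ⟨N, hN⟩ : ∃ N, N = π.ker.map (QuotientGroup.mk' (center G)) := ⟨_, rfl⟩
  haveI hn : N.Normal := hN ▸ Normal.map inferInstance _ (QuotientGroup.mk'_surjective _)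
  let W : Subgroup (G ⧸ center G) :=
    { carrier := {y | y ∈ N ∧ (∀ z ∈ N, z * y = y * z) ∧ y ^ p = 1}
      one_mem' := ⟨N.one_mem, by simp, one_pow _⟩
      mul_mem' := fun {a b} ha hb => ⟨N.mul_mem ha.1 hb.1, fun z hz => by
        rw [← mul_assoc, ha.2.1 z hz, mul_assoc, hb.2.1 z hz, mul_assoc], by
        rw [(show Commute a b from hb.2.1 a ha.1).mul_pow, ha.2.2, hb.2.2, mul_one]⟩
      inv_mem' := fun {a} ha => ⟨N.inv_mem ha.1, fun z hz => (show Commute z a from ha.2.1 z hz).inv_right.eq, by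
        rw [inv_pow, ha.2.2, inv_one]⟩ }
  letI : CommGroup W := { (inferInstance : Group W) with mul_comm := fun a b => Subtype.ext (b.2.2.1 a a.2.1) }
  have hc : ∀ (g : G ⧸ center G) (y : W), g * y * g⁻¹ ∈ W := fun g y =>
    ⟨hn.conj_mem _ y.2.1 g, fun z hz => by
      have := y.2.2.1 _ (hn.conj_mem' z hz g)
      calc _ = g * (g⁻¹ * z * g * y) * g⁻¹ := by group
        _ = _ := by rw [this]; group, by rw [conj_pow, y.2.2.2, mul_one, mul_inv_cancel]⟩
  letI : DistribMulAction G (Additive W) :=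
    { smul := fun g v => Additive.ofMul ⟨_, hc g v.toMul⟩
      one_smul := fun v => Subtype.ext (show ((1 : G) : G ⧸ center G) * _ * _ = _ by simp; rfl)
      mul_smul := fun a b v => Subtype.ext (show ((a * b : G) : G ⧸ center G) * _ * _ = a * (b * _ * _) * _ by
        simp only [QuotientGroup.mk_mul, mul_inv_rev, mul_assoc])
      smul_zero := fun a => Subtype.ext (show (a : G ⧸ center G) * 1 * _ = 1 by simp)
      smul_add := fun a x y => Subtype.ext conj_mul.symm }
  haveI : Nontrivial N := (nontrivial_iff_ne_bot N).2 fun e => hZ (by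
    rwa [hN, Subgroup.map_eq_bot_iff, QuotientGroup.ker_mk'] at e)
  have hNp : IsPGroup p N := hN ▸ hP.map _
  haveI := hNp.center_nontrivial
  obtain ⟨e, he0, he⟩ := (hNp.to_subgroup (center N)).nontrivial_iff_card.1 inferInstance
  obtain ⟨z, hz⟩ := exists_prime_orderOf_dvd_card' (G := center N) p (he ▸ dvd_pow_self p he0.ne')
  haveI : Nontrivial (Additive W) := ⟨⟨Additive.ofMul ⟨z.1.1, z.1.2, fun y hy =>
    congrArg Subtype.val (mem_center_iff.1 z.2 ⟨y, hy⟩),
      congrArg (fun t : center N => t.1.1) (hz ▸ pow_orderOf_eq_one z)⟩, 0, fun h => hp.out.one_lt.ne' (by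
    rw [← hz, orderOf_eq_one_iff]
    exact Subtype.ext (Subtype.ext (congrArg (fun t : Additive W => t.toMul.1) h)))⟩⟩
  obtain ⟨v, hv, h⟩ := coind H π hs (V := Additive W) (fun v => Subtype.ext v.toMul.2.2.2) fun g hg v =>
    Subtype.ext (show (g : G ⧸ center G) * _ * _ = _ by
      rw [v.toMul.2.2.1 g (hN ▸ mem_map_of_mem _ hg), mul_inv_cancel_right]; rfl)
  obtain ⟨x, hx, e⟩ : v.toMul.1 ∈ π.ker.map (QuotientGroup.mk' (center G)) := hN ▸ v.toMul.2.1
  obtain ⟨k, hk⟩ := hP ⟨x, hx⟩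
  refine fin π (congrArg Subtype.val hk) (fun hx' => hv (Subtype.ext ?_)) (fun g hg => ?_) h
  · exact e.symm.trans ((QuotientGroup.eq_one_iff x).2 hx')
  · have : (g : G ⧸ center G) * v.toMul.1 * (g : G ⧸ center G)⁻¹ = v.toMul.1 :=
      congrArg (fun t : Additive W => t.toMul.1) hg
    rw [← QuotientGroup.eq_one_iff]
    simp only [QuotientGroup.mk_mul, QuotientGroup.mk_inv]
    rw [show (x : G ⧸ center G) = v.toMul.1 from e, this, mul_inv_cancel]

/-- the symmetric group on the first five points -/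
def i5 (β : Type) : Perm (Fin 5) →* Perm (Fin 5 ⊕ β) := (Perm.sumCongrHom _ β).comp (MonoidHom.inl _ _)

theorem i5_tri {β : Type} [Fintype β] [DecidableEq β] {S : Subgroup (Perm (Fin 5 ⊕ β))}
    (h : ∀ x, Perm.sign x = 1 → i5 β x ∈ S) : ¬ Group.IsSolvable S := by
  let a : Perm (Fin 5) := ⟨![1, 2, 0, 3, 4], ![2, 0, 1, 3, 4], by decide, by decide⟩
  let u : Perm (Fin 5) := ⟨![0, 1, 3, 4, 2], ![0, 1, 4, 2, 3], by decide, by decide⟩
  let v : Perm (Fin 5) := ⟨![0, 2, 4, 3, 1], ![0, 4, 1, 3, 2], by decide, by decide⟩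
  have e : a = ⁅u * a * u⁻¹, v * a * v⁻¹⁆ := by decide
  refine Tri.not_solvable ⟨fun h => ?_, ?_⟩ (h a (by decide)) (h u (by decide)) (h v (by decide))
  · have := DFunLike.congr_fun h (.inl 0)
    simp [i5, a] at this
  · conv_lhs => rw [e]
    simp only [map_commutatorElement, map_mul, map_inv]

theorem sumc {β : Type} [Fintype β] [DecidableEq β] {c : Perm β} (c1 : c ≠ 1) (c2 : c ^ p = 1)
    (c3 : Perm.sign c = 1) (π : G →* Perm (Fin 5 ⊕ β)) (hs : ∀ x, Perm.sign x = 1 → ∃ h, π h = x)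
    (hP : IsPGroup p π.ker) (hZ : π.ker ≤ center G ∨ p.Coprime 120) : ¬ Hyp p G := by
  obtain ⟨y, hy⟩ : ∃ y, y = Perm.sumCongrHom (Fin 5) β (1, c) := ⟨_, rfl⟩
  have si : ∀ x, Perm.sign x = 1 → Perm.sign (i5 β x) = 1 := fun x hx => by simp [i5, hx]
  have cm : ∀ x, i5 β x * y = y * i5 β x := fun x => by
    rw [hy, i5, MonoidHom.comp_apply, ← map_mul, ← map_mul]; simp
  have key : ∀ x, π x = y → (∃ k, x ^ p ^ k = 1) ∧ x ∉ center G := fun x hx => by
    obtain ⟨k, hk⟩ := hP ⟨x ^ p, by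
      rw [MonoidHom.mem_ker, map_pow, hx, hy, ← map_pow, Prod.pow_mk, c2, one_pow]; exact map_one _⟩
    refine ⟨⟨k + 1, by rw [pow_succ', pow_mul]; exact congrArg Subtype.val hk⟩, fun h => c1 (Equiv.ext fun b => ?_)⟩
    obtain ⟨g, hg⟩ := hs (swap (.inl 0) (.inl 1) * swap (.inl 0) (.inr b)) (by simp)
    have := DFunLike.congr_fun (congrArg π (mem_center_iff.1 h g)) (.inr b)
    by_contra hb
    simp [hx, hg, hy, swap_apply_def, show c b ≠ b from hb] at this
  obtain ⟨x, hx⟩ := hs y (by simp [hy, c3])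
  rcases hZ with hZ | hZ
  · obtain ⟨⟨k, h1⟩, h2⟩ := key x hx
    refine fin π h1 h2 (S := (centralizer {y}).comap π) (fun g hg => hZ ?_) (i5_tri fun z hz => ?_)
    · rw [MonoidHom.mem_ker, map_mul, map_mul, map_mul, map_inv, map_inv, hx, mem_centralizer_singleton_iff.1 hg]
      group
    · obtain ⟨g, hg⟩ := hs _ (si z hz)
      exact ⟨g, mem_centralizer_singleton_iff.2 (hg ▸ cm z), hg⟩
  · obtain ⟨K, hK⟩ : ∃ K, K = (i5 β).range.comap π := ⟨_, rfl⟩
    obtain ⟨e, he⟩ := IsPGroup.iff_card.1 hP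
    have hi : (π.comp K.subtype).ker.index ∣ 120 := by
      rw [index_ker]
      refine (card_dvd_of_le (K := (i5 β).range) ?_).trans ((card_range_dvd _).trans 
        (by rw [Nat.card_perm, Nat.card_fin]; rfl))
      rintro _ ⟨g, rfl⟩
      exact (hK ▸ g.2 : g.1 ∈ (i5 β).range.comap π)
    have hk : Nat.card (π.comp K.subtype).ker ∣ p ^ e := by
      rw [← he, ← card_map_of_injective K.subtype_injective]
      refine card_dvd_of_le ?_
      rintro _ ⟨g, hg, rfl⟩
      exact hg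
    obtain ⟨L, hL⟩ := exists_right_complement'_of_coprime (N := (π.comp K.subtype).ker)
      (((hZ.pow_left e).coprime_dvd_left hk).coprime_dvd_right hi)
    haveI := hP.isNilpotent
    obtain ⟨n, hn, h⟩ := H1.coset_fixed (L.map K.subtype) π.ker le_normalizer_of_normal (by
      rw [card_map_of_injective K.subtype_injective, ← hL.symm.index_eq_card, he]
      exact ((hZ.pow_left e).coprime_dvd_right hi).symm) (.inr inferInstance) x (by
      rintro _ ⟨g, -, rfl⟩
      obtain ⟨z, hz⟩ : g.1 ∈ (i5 β).range.comap π := hK ▸ g.2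
      rw [MonoidHom.mem_ker, map_mul, map_mul, map_mul, map_inv, map_inv, hx, coe_subtype, ← hz, mul_assoc y⁻¹, cm]
      group)
    obtain ⟨⟨k, h1⟩, h2⟩ := key (x * n) (by rw [map_mul, hx, MonoidHom.mem_ker.1 hn, mul_one])
    refine fin π h1 h2 (S := L.map K.subtype) (fun g hg => ?_) (i5_tri fun z hz => ?_)
    · rw [h g hg, mul_inv_cancel_right, mul_inv_cancel]
      exact one_mem _
    · obtain ⟨g, hg⟩ := hs _ (si z hz)
      obtain ⟨⟨a, b⟩, e⟩ := (hL.existsUnique (⟨g, hK ▸ ⟨z, hg.symm⟩⟩ : K)).exists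
      refine ⟨b.1, mem_map_of_mem _ b.2, ?_⟩
      have h3 : π a.1 = 1 := a.2
      rw [← hg, show g = a.1 * b.1 from (congrArg Subtype.val e).symm, map_mul, h3, one_mul]

omit [Finite G] hp in
theorem of_section {α : Type} [Fintype α] [DecidableEq α] {d : ℕ} (hd : Fintype.card α ≤ d) (ρ : G →* Perm (Fin d))
    (hs : ∀ x, Perm.sign x = 1 → ∃ h, ρ h = x) :
    ∃ (H : Subgroup G) (π : H →* Perm α), ∀ x, Perm.sign x = 1 → ∃ h, π h = x := by
  obtain ⟨ι⟩ : Nonempty (α ↪ Fin d) := Function.Embedding.nonempty_of_card_le (by simpa using hd)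
  have hj := Perm.viaEmbeddingHom_injective ι
  refine ⟨(Perm.viaEmbeddingHom ι).range.comap ρ, (MonoidHom.ofInjective hj).symm.toMonoidHom.comp
    ((ρ.comp (Subgroup.subtype _)).codRestrict _ fun g => g.2), fun x hx => ?_⟩
  obtain ⟨g, hg⟩ := hs (Perm.viaEmbeddingHom ι x) (by
    rw [Perm.viaEmbeddingHom_apply, Perm.viaEmbedding, ← hx]
    convert Perm.sign_extendDomain x _)
  refine ⟨⟨g, x, hg.symm⟩, ?_⟩
  simp only [MonoidHom.comp_apply, MulEquiv.coe_toMonoidHom, MulEquiv.symm_apply_eq]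
  exact Subtype.ext hg

end Cfsg.Agent.H61.AM
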