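/-
Modules of the symmetric group of degree ten in characteristic five.
-/
import Cfsg.Agent.H61.AltM5b
import Cfsg.Agent.H61.AltM5c
import Cfsg.Agent.H61.AltM5d
import Cfsg.Agent.H61.AltM5e

set_option autoImplicit false
set_option maxRecDepth 100000
set_option exponentiation.threshold 2000

namespace Cfsg.Agent.H61.AM.M5

open Equiv

universe u

theorem hE {a b c d : ℕ} (ha : a < 4) (hb : b < 4) (hc : c < 4) (hd : d < 4) :
    ∃ E, okE 5 TT (mu a b) (mu c d) (pool 5 RL SL) E = true := by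
  have : ∀ a < 16, ∃ E, chk a E = true := fun a ha => by
    interval_cases a
    exacts [⟨_, e0⟩, ⟨_, e1⟩, ⟨_, e2⟩, ⟨_, e3⟩, ⟨_, e4⟩, ⟨_, e5⟩, ⟨_, e6⟩, ⟨_, e7⟩, ⟨_, e8⟩, ⟨_, e9⟩, ⟨_, e10⟩, ⟨_, e11⟩, ⟨_, e12⟩, ⟨_, e13⟩, ⟨_, e14⟩, ⟨_, e15⟩]
  obtain ⟨E, hE⟩ := this (4 * a + b) (by omega)
  obtain ⟨x, hx⟩ := (ex_left (all2_spec hE)).1 (4 * c + d) (List.mem_range.2 (by omega))
  rw [show (4 * a + b) / 4 = a by omega, show (4 * a + b) % 4 = b by omega, show (4 * c + d) / 4 = c by omega,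
    show (4 * c + d) % 4 = d by omega] at hx
  exact ⟨x, hx⟩

theorem hN : okN 9 25 TT.tb [654820000545, 384523579920] CC.c0 = true ∧ gs.all (okc 9) = true ∧
    eqw 9 [TT.tb 0] [] = true ∧ ∀ k < 25, eqw 9 (List.replicate (5 ^ 1) (TT.tb k)) [] = true := by decide +kernel

/-- the relations of the generators -/
def rls : List (List ℕ × List ℕ) := [([0, 2], [2, 0, 0, 0]), ([1, 2], [2, 1]), ([0, 3], [3, 0]),
  ([1, 3], [3, 1, 1, 1]), ([2, 3], [3, 2]), ([2, 2, 2, 2], []), ([3, 3, 3, 3], []), ([0, 0, 0, 0, 0], []),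
  ([1, 1, 1, 1, 1], [])]

/-- the generators -/
noncomputable def q (i : ℕ) : Perm (Fin 10) := P 9 (gs.getD i 0)

theorem hR : ∀ r ∈ rls, (r.1.map q).prod = (r.2.map q).prod := by
  have : ∀ r ∈ rls, (r.1.map (gs.getD · 0)).all (okc 9) = true ∧ (r.2.map (gs.getD · 0)).all (okc 9) = true ∧
      eqw 9 (r.1.map (gs.getD · 0)) (r.2.map (gs.getD · 0)) = true := by decide +kernel
  intro r hr
  obtain ⟨a, b, c⟩ := this r hr
  have := eqw_eq (List.all_eq_true.1 a) (List.all_eq_true.1 b) c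
  rwa [W, W, List.map_map, List.map_map] at this

theorem eig (V : Type u) [AddCommGroup V] [DistribMulAction (Perm (Fin 10)) V] [Finite V] [Nontrivial V]
    (hp : ∀ v : V, 5 • v = 0) : ∃ w : V, w ≠ 0 ∧ q 0 • w = w ∧ q 1 • w = w ∧
      ∃ a < 4, ∃ b < 4, q 2 • w = 2 ^ a • w ∧ q 3 • w = 2 ^ b • w := by
  haveI : Fact (Nat.Prime 5) := ⟨by norm_num⟩
  have h := hR
  simp only [rls, List.forall_mem_cons, List.map_cons, List.map_nil, List.prod_cons, List.prod_nil, mul_one] at h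
  obtain ⟨r1, r2, r3, r4, r5, r6, r7, -⟩ := h
  have hB : IsPGroup 5 (Subgroup.closure (P 9 '' {g | g ∈ [654820000545, 384523579920]})) :=
    pgroup hN.1 (fun k hk => okT_tb hT (hk.trans (by decide))) (by decide +kernel) (by norm_num) hN.2.2.1
      hN.2.2.2
  obtain ⟨w, hw, h1⟩ := exists_fix hB hp
  let U : ℕ → AddSubgroup V := fun c =>
    { carrier := {v | q 0 • v = v ∧ q 1 • v = v ∧ (c = 0 ∨ q 2 • v = c • v)}
      zero_mem' := by simp
      add_mem' := fun a b => ⟨by rw [smul_add, a.1, b.1], by rw [smul_add, a.2.1, b.2.1], by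
        rcases a.2.2 with h | h
        · exact .inl h
        · exact b.2.2.imp id fun k => by rw [smul_add, h, k, smul_add]⟩
      neg_mem' := fun a => ⟨by rw [smul_neg, a.1], by rw [smul_neg, a.2.1],
        a.2.2.imp id fun k => by rw [smul_neg, k, smul_neg]⟩ }
  obtain ⟨w, hw, w0, a, ha, e⟩ := eig4 hp (U 0) (a := q 2) (by simpa [pow_succ, mul_assoc] using r6)
    (fun v hv => ⟨by rw [← mul_smul, r1]; simp only [mul_smul, hv.1],
      by rw [← mul_smul, r2, mul_smul, hv.2.1], .inl rfl⟩)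
    (v := w) ⟨h1 _ (Subgroup.subset_closure ⟨_, by simp [gs], rfl⟩), h1 _ (Subgroup.subset_closure ⟨_, by simp [gs], rfl⟩),
      .inl rfl⟩ hw
  obtain ⟨w, hw, w0, b, hb, e⟩ := eig4 hp (U (2 ^ a)) (a := q 3) (by simpa [pow_succ, mul_assoc] using r7)
    (fun v hv => ⟨by rw [← mul_smul, r3, mul_smul, hv.1], by rw [← mul_smul, r4]; simp only [mul_smul, hv.2.1],
      hv.2.2.imp id fun k => by rw [← mul_smul, r5, mul_smul, k, smul_comm]⟩)
    (v := w) ⟨hw.1, hw.2.1, .inr e⟩ w0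
  exact ⟨w, w0, hw.1, hw.2.1, a, ha, b, hb, hw.2.2.resolve_left (by positivity), e⟩

theorem tb_eq {k : ℕ} (hk : k < TT.m) :
    P 9 (TT.tb k) = q 0 ^ (k % 5) * (q 1 ^ (k / 5 % 5) * (q 2 ^ (k / 25 % 4) * q 3 ^ (k / 100))) := by
  rw [(okC_wd hT hC hk).2]
  simp only [CC, W_append, W_rep]
  rfl

theorem h3 : ∀ a < 4, (((2 ^ a) ^ 3 : ℕ) : ZMod 5) = 2 ^ (3 * a % 4) := by decide

theorem main (V : Type u) [AddCommGroup V] [DistribMulAction (Perm (Fin 10)) V] [Finite V]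
    (hp : ∀ v : V, 5 • v = 0) (hG : Good (Perm (Fin 10)) V) : Subsingleton V := by
  haveI : Fact (Nat.Prime 5) := ⟨by norm_num⟩
  refine good_ind (p := 5) (fun V _ _ _ _ hp hG => ?_) _ V rfl hp hG
  have h := hR
  simp only [rls, List.forall_mem_cons, List.map_cons, List.map_nil, List.prod_cons, List.prod_nil, mul_one] at h
  obtain ⟨-, -, -, -, -, r6, r7, r8, r9, -⟩ := h
  obtain ⟨w, hw, w0, w1, c, hc, d, hd, w2, w3⟩ := eig V hp
  haveI := Du.nontrivial hp
  obtain ⟨f, hf, f0, f1, a, ha, b, hb, f2, f3⟩ := eig (Du 5 V) Du.hp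
  have g0 := Du.eig (f0.trans (one_smul ℕ f).symm) (k := 4) (by simpa [pow_succ, mul_assoc] using r8)
  have g1 := Du.eig (f1.trans (one_smul ℕ f).symm) (k := 4) (by simpa [pow_succ, mul_assoc] using r9)
  have g2 := Du.eig f2 (k := 3) (by simpa [pow_succ, mul_assoc] using r6)
  have g3 := Du.eig f3 (k := 3) (by simpa [pow_succ, mul_assoc] using r7)
  have pw : ∀ {g : Perm (Fin 10)} {c : ℕ}, g • w = c • w → ∀ j : ℕ, g ^ j • w = c ^ j • w := fun {g c} h j => by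
    induction j with
    | zero => simp
    | succ j ih => rw [pow_succ', mul_smul, ih, smul_comm, h, pow_succ, mul_smul]
  have pf : ∀ {g : Perm (Fin 10)} {c : ZMod 5}, (∀ z, f.h (g • z) = c * f.h z) → ∀ (j : ℕ) z,
      f.h (g ^ j • z) = c ^ j * f.h z := fun {g c} h j z => by
    induction j with
    | zero => simp
    | succ j ih => rw [pow_succ', mul_smul, h, ih, pow_succ', mul_assoc]
  have hl : ∀ k < TT.m, P 9 (TT.tb k) • w = mu c d k • w := fun k hk => by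
    have sc : ∀ (g : Perm (Fin 10)) (c : ℕ), g • c • w = c • g • w := fun g c => smul_comm g c w
    rw [tb_eq hk, mul_smul, mul_smul, mul_smul, pw w3, sc, pw w2, ← mul_smul _ _ w, sc,
      pw (w1.trans (one_smul ℕ w).symm), one_pow, one_smul, sc, pw (w0.trans (one_smul ℕ w).symm), one_pow,
      one_smul, mu, ← nsmul_eq_mod_nsmul _ (hp w), pow_add, pow_mul, pow_mul, mul_comm]
  obtain ⟨E, hE⟩ := hE (Nat.mod_lt (3 * a) (by norm_num)) (Nat.mod_lt (3 * b) (by norm_num)) hc hd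
  refine ⟨w, f.h, hw, hf, finish (by norm_num) hG hT hC hK hP hE (fun k hk => ?_) (fun k hk z => ?_) hl⟩
  · have hk' : k < 25 := hk
    rw [hl k (hk'.trans (by decide)), mu, Nat.div_eq_of_lt hk', Nat.div_eq_of_lt (by omega : k < 100)]
    simp
  · rw [tb_eq hk, mul_smul, mul_smul, mul_smul, pf g0, pf g1, pf g2, pf g3, h3 a ha, h3 b hb, mu,
      ZMod.natCast_mod]
    push_cast
    ring

end Cfsg.Agent.H61.AM.M5
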